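import Cfsg.Agent.H35.HT.Idx

/-!
# Weights `w = -1` modulo `p`, unitary primes: the character of the smaller group (helper35)

`split_sp`, `split_plus`, `split_minus` : the rank is `m = 2 c + n`, `0 < n`, the weight of rank `n` is `w - 2`.
`k_sp`, `k_plus`, `k_minus` : the index `j = c k`, `k` even, of a character of the dual polar scheme of rank `n` whose
degree has `1 ≤ v ≤ 2`, `v = 1` if `w < 2 p`.
-/

set_option autoImplicit false
set_option linter.unusedSectionVars false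

namespace Cfsg.Agent.H35.HT.Wm

open Finset Cfsg.Agent.H35.HT.Val Cfsg.Agent.H35.HT.Idx Cfsg.Agent.H722.DPol

variable {p : ℕ} [hp : Fact p.Prime] {Q c : ℕ}

theorem three_le (hp1 : Odd p) : 3 ≤ p := by
  have h1 := hp.out.two_le
  rcases Nat.lt_or_ge 2 p with h | h
  · omega
  · obtain rfl : p = 2 := by omega
    exact absurd hp1 (by decide)

/-- Bounds. -/
theorem low (hp1 : Odd p) {w : ℕ} (h1 : p ≤ w + 2) (h2 : w + 2 < p ^ 2) (h3 : p ∣ w + 2 + 1) :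
    p ≤ w ∧ w < p ^ 2 ∧ ¬ p ∣ w + 1 := by
  have hp3 := three_le hp1
  obtain ⟨e, he⟩ := h3
  have he2 : 2 ≤ e := by
    by_contra h
    have : p * e ≤ p * 1 := Nat.mul_le_mul_left _ (by omega)
    omega
  have h4 : p * 2 ≤ p * e := Nat.mul_le_mul_left _ he2
  refine ⟨by omega, by omega, fun h5 => ?_⟩
  have h6 : p ∣ 2 := (Nat.dvd_add_right h5).1 ⟨e, by omega⟩
  exact absurd (Nat.le_of_dvd (by norm_num) h6) (by omega)

theorem mul_le_of {m d : ℕ} (hd : 0 < d) (h : 3 ≤ m / d) : 3 * d ≤ m := (Nat.le_div_iff_mul_le hd).1 h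

theorem split_sp (hp1 : Odd p) (hc0 : 0 < c) {m : ℕ} (h1 : p ≤ wSp c m) : ∃ n, m = 2 * c + n ∧ 0 < n := by
  have hp3 := three_le hp1
  have h2 : 3 * c ≤ m := mul_le_of hc0 (hp3.trans h1)
  exact ⟨m - 2 * c, by omega, by omega⟩

theorem split_plus (hp1 : Odd p) (hc0 : 0 < c) {m : ℕ} (h1 : p ≤ wPlus c m) : ∃ n, m = 2 * c + n ∧ 0 < n := by
  have h2 : wPlus c m ≤ m / c := by
    unfold wPlus
    split_ifs
    exacts [Nat.sub_le _ _, le_rfl]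
  exact split_sp hp1 hc0 (h1.trans h2)

theorem split_minus (hp1 : Odd p) (hc0 : 0 < c) {m : ℕ} (h1 : p ≤ wMinus c m) : ∃ n, m = 2 * c + n ∧ (2 ≤ c → 0 < n) := by
  have hp3 := three_le hp1
  have h2 : wMinus c m ≤ (m + 1) / c := by
    unfold wMinus
    split_ifs
    exacts [Nat.sub_le _ _, le_rfl]
  have h3 : 3 * c ≤ m + 1 := mul_le_of hc0 (hp3.trans (h1.trans h2))
  exact ⟨m - 2 * c, by omega, by omega⟩

/-- the properties of the character -/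
def Ok (p Q n t : ℕ) (b : Prop) : Prop :=
  ∃ j v : ℕ, 0 < j ∧ j ≤ n ∧ (Q : ZMod p) ^ j = 1 ∧
    padicValRat p (ff (Q : ℚ) ((Q : ℚ) ^ t) n j) = v ∧ 1 ≤ v ∧ v ≤ 2 ∧ (b → v = 1)

theorem ok_of (hd : orderOf (Q : ZMod p) = 2 * c) (hc0 : 0 < c) {n t : ℕ} {b b' : Prop} (hb : b → b')
    (h : ∃ k, Even k ∧ 0 < k ∧ c * k ≤ n ∧
      1 ≤ padicValRat p (ff (Q : ℚ) ((Q : ℚ) ^ t) n (c * k)) ∧
      padicValRat p (ff (Q : ℚ) ((Q : ℚ) ^ t) n (c * k)) ≤ 2 ∧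
      (b' → padicValRat p (ff (Q : ℚ) ((Q : ℚ) ^ t) n (c * k)) = 1)) : Ok p Q n t b := by
  obtain ⟨k, hk, hk0, hkn, h1, h2, h3⟩ := h
  obtain ⟨v, hv⟩ := Int.eq_ofNat_of_zero_le (zero_le_one.trans h1)
  rw [hv] at h1 h2 h3
  refine ⟨c * k, v, Nat.mul_pos hc0 hk0, hkn, ?_, hv, by exact_mod_cast h1, by exact_mod_cast h2,
    fun h => by exact_mod_cast h3 (hb h)⟩
  rw [pow_mul, pow_d hd hc0, hk.neg_one_pow]

/-- **Symplectic and odd orthogonal groups.** -/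
theorem k_sp (hQ : 2 ≤ Q) (hd : orderOf (Q : ZMod p) = 2 * c) (hc0 : 0 < c) {n : ℕ} (h1 : p ≤ wSp c (2 * c + n))
    (h2 : wSp c (2 * c + n) < p ^ 2) (h3 : p ∣ wSp c (2 * c + n) + 1) :
    Ok p Q n 1 (wSp c (2 * c + n) < 2 * p) := by
  rw [wSp_add hc0] at h1 h2 h3 ⊢
  obtain ⟨h4, h5, h6⟩ := low (odd_of hd hc0) h1 h2 h3
  exact ok_of hd hc0 (fun h => by omega) (exists_sp hQ hd hc0 (w := wSp c n) rfl h4 h5 h6)

/-- **Orthogonal groups of plus type.** -/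
theorem k_plus (hQ : 2 ≤ Q) (hd : orderOf (Q : ZMod p) = 2 * c) (hc0 : 0 < c) {n : ℕ} (h1 : p ≤ wPlus c (2 * c + n))
    (h2 : wPlus c (2 * c + n) < p ^ 2) (h3 : p ∣ wPlus c (2 * c + n) + 1) :
    Ok p Q n 0 (wPlus c (2 * c + n) < 2 * p) := by
  rw [wPlus_add hc0] at h1 h2 h3 ⊢
  obtain ⟨h4, h5, h6⟩ := low (odd_of hd hc0) h1 h2 h3
  exact ok_of hd hc0 (fun h => by omega) (exists_plus hQ hd hc0 (w := wPlus c n) rfl h4 h5 h6)

/-- **Orthogonal groups of minus type.** -/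
theorem k_minus (hQ : 2 ≤ Q) (hd : orderOf (Q : ZMod p) = 2 * c) (hc0 : 2 ≤ c) {n : ℕ} (h1 : p ≤ wMinus c (2 * c + n))
    (h2 : wMinus c (2 * c + n) < p ^ 2) (h3 : p ∣ wMinus c (2 * c + n) + 1) :
    Ok p Q n 2 (wMinus c (2 * c + n) < 2 * p) := by
  have hc0' : 0 < c := by omega
  rw [wMinus_add hc0'] at h1 h2 h3 ⊢
  obtain ⟨h4, h5, h6⟩ := low (odd_of hd hc0') h1 h2 h3
  exact ok_of hd hc0' (fun h => by omega) (exists_minus hQ hd hc0' (w := wMinus c n) rfl h4 h5 h6 (by omega))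

end Cfsg.Agent.H35.HT.Wm
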